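import Mathlib
import Cfsg.Agent.H522.FrobRing
import Cfsg.Agent.S0042

/-!
# From `IsFrobeniusComplement` to `FrobPair`
-/

set_option autoImplicit false

namespace Cfsg.Agent.H522

open scoped Pointwise

theorem frobPair_of {A : Type*} [Group A] (Fk Hc : Subgroup A) [Fk.Normal]
    (hHc : Cfsg.IsFrobeniusComplement Hc) (hker : Cfsg.frobeniusKernel Hc = (Fk : Set A)) :
    FrobPair Fk Hc := by
  refine ⟨fun h _ f hf => ‹Fk.Normal›.conj_mem f hf h, ?_⟩
  intro h hh h1 f hf e
  by_contra hf1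
  have hfk : f ∈ Cfsg.frobeniusKernel Hc := by rw [hker]; exact hf
  have hfH : f ∉ Hc := by
    rcases hfk with h2 | h2
    · exact absurd h2 hf1
    · have := h2 1
      rwa [map_one, one_smul] at this
  have h3 := hHc.2.2 f hfH
  apply h1
  have h4 : h ∈ Hc ⊓ (MulAut.conj f • Hc) := by
    refine Subgroup.mem_inf.mpr ⟨hh, ?_⟩
    rw [Subgroup.mem_smul_pointwise_iff_exists]
    refine ⟨h, hh, ?_⟩
    rw [MulAut.smul_def, MulAut.conj_apply, ← e, mul_inv_cancel_right]
  rw [h3, Subgroup.mem_bot] at h4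
  exact h4

theorem nilpotent_of {A : Type*} [Group A] [Finite A] (Fk Hc : Subgroup A)
    (hHc : Cfsg.IsFrobeniusComplement Hc) (hker : Cfsg.frobeniusKernel Hc = (Fk : Set A)) :
    Group.IsNilpotent Fk := by
  obtain ⟨N, hN, -, hnil⟩ := Cfsg.Agent.S0042.result Hc hHc
  have : N = Fk := SetLike.coe_injective (hN.trans hker)
  rwa [this] at hnil

end Cfsg.Agent.H522
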