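import Mathlib
import Cfsg.Agent.S4124

/-!
# Solvability from a fixed-point-free nilpotent (not necessarily faithful) group of automorphisms
-/

set_option autoImplicit false

namespace Cfsg.Agent.H522

/-- If a finite nilpotent subgroup `F` of a group `A` acting on the finite group `G` fixes only the
identity, then `G` is solvable (the action need not be faithful). -/
theorem solvable_of_fpf {G A : Type*} [Group G] [Finite G] [Group A] [MulDistribMulAction A G]
    (F : Subgroup A) [Finite F] (hF : Group.IsNilpotent F)
    (hCF : ∀ g : G, (∀ f ∈ F, f • g = g) → g = 1) : Group.IsSolvable G := by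
  let φ : F →* MulAut G := (MulDistribMulAction.toMulAut A G).comp F.subtype
  have hφ : ∀ (f : F) (g : G), φ f g = (f : A) • g := fun f g => rfl
  have hfin : Finite φ.range := Finite.of_surjective _ φ.rangeRestrict_surjective
  have hnil : Group.IsNilpotent φ.range :=
    Group.nilpotent_of_surjective φ.rangeRestrict φ.rangeRestrict_surjective
  have hfaith : FaithfulSMul φ.range G := ⟨fun {a b} h => by
    apply Subtype.ext
    apply MulEquiv.ext
    exact h⟩
  refine Cfsg.Agent.S4124.result (A := φ.range) hnil (fun g hg => hCF g (fun f hf => ?_))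
  exact hg ⟨φ ⟨f, hf⟩, ⟨⟨f, hf⟩, rfl⟩⟩

end Cfsg.Agent.H522
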